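import Mathlib

set_option autoImplicit false
set_option linter.all false

namespace Cfsg.Agent.H36

open Module

/-- An alternating bilinear form on a finite-dimensional space has even rank. -/
theorem alt_even_rank {F : Type*} [Field F] : ∀ (n : ℕ) {V : Type _} [AddCommGroup V] [Module F V]
    [FiniteDimensional F V] (B : V →ₗ[F] V →ₗ[F] F) (_ : ∀ v, B v v = 0) (_ : finrank F V = n),
    Even (finrank F (LinearMap.range B)) := by
  intro n
  induction n using Nat.strong_induction_on with
  | _ n ih =>
    intro V _ _ _ B hB hn
    have hskew : ∀ x y, B x y = - B y x := by
      intro x y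
      have h := hB (x + y)
      simp only [map_add, LinearMap.add_apply, hB, zero_add, add_zero] at h
      linear_combination h
    by_cases h0 : B = 0
    · have : LinearMap.range B = ⊥ := by rw [h0]; exact LinearMap.range_zero
      rw [this]; simp
    · obtain ⟨u, v, huv⟩ : ∃ u v, B u v ≠ 0 := by
        by_contra hcon
        push Not at hcon
        apply h0
        ext x y
        simp [hcon]
      -- the map x ↦ (B x u, B x v)
      let φ : V →ₗ[F] F × F := (B.flip u).prod (B.flip v)
      have hφ : Function.Surjective φ := by
        rintro ⟨a, b⟩
        refine ⟨(b * (B u v)⁻¹) • u + (a * (B v u)⁻¹) • v, ?_⟩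
        have huv' : B v u ≠ 0 := by rw [hskew]; simpa using huv
        refine Prod.ext ?_ ?_
        · change B ((b * (B u v)⁻¹) • u + (a * (B v u)⁻¹) • v) u = a
          rw [map_add, map_smul, map_smul, LinearMap.add_apply, LinearMap.smul_apply, LinearMap.smul_apply, hB,
            smul_eq_mul, smul_eq_mul, mul_zero, zero_add, mul_assoc, inv_mul_cancel₀ huv', mul_one]
        · change B ((b * (B u v)⁻¹) • u + (a * (B v u)⁻¹) • v) v = b
          rw [map_add, map_smul, map_smul, LinearMap.add_apply, LinearMap.smul_apply, LinearMap.smul_apply, hB,
            smul_eq_mul, smul_eq_mul, mul_zero, add_zero, mul_assoc, inv_mul_cancel₀ huv, mul_one]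
      let K := LinearMap.ker φ
      have hKmem : ∀ x, x ∈ K ↔ B x u = 0 ∧ B x v = 0 := by
        intro x
        simp [K, φ, LinearMap.mem_ker, LinearMap.prod_apply, Prod.ext_iff]
      have hdim : finrank F K + 2 = n := by
        have h1 := LinearMap.finrank_range_add_finrank_ker φ
        rw [LinearMap.range_eq_top.mpr hφ, finrank_top, finrank_prod, finrank_self] at h1
        rw [← hn, ← h1]
        exact add_comm _ _
      let BK : K →ₗ[F] K →ₗ[F] F := B.domRestrict₁₂ K K
      have hBK : ∀ x y : K, BK x y = B x y := fun x y => rfl
      have hev := ih (finrank F K) (by omega) BK (fun x => hB x) rfl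
      -- kernels agree
      have hker : finrank F (LinearMap.ker BK) = finrank F (LinearMap.ker B) := by
        have hmap : (LinearMap.ker BK).map K.subtype = LinearMap.ker B := by
          ext x
          constructor
          · rintro ⟨y, hy, rfl⟩
            rw [SetLike.mem_coe, LinearMap.mem_ker] at hy
            rw [LinearMap.mem_ker]
            ext z
            -- decompose z
            have huv' : B v u ≠ 0 := by rw [hskew]; simpa using huv
            set w := z - (B z v * (B u v)⁻¹) • u - (B z u * (B v u)⁻¹) • v with hw
            have hwK : w ∈ K := by
              rw [hKmem]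
              constructor
              · simp only [hw, map_sub, map_smul, LinearMap.sub_apply, LinearMap.smul_apply, hB, smul_eq_mul,
                  mul_zero, sub_zero]
                rw [mul_assoc, inv_mul_cancel₀ huv']; simp
              · simp only [hw, map_sub, map_smul, LinearMap.sub_apply, LinearMap.smul_apply, hB, smul_eq_mul,
                  mul_zero, sub_zero]
                rw [mul_assoc, inv_mul_cancel₀ huv]; simp
            have hyK := (hKmem _).mp y.2
            have h3 : B y w = 0 := by
              have := congrArg (fun f => f ⟨w, hwK⟩) hy
              exact this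
            have h4 : z = w + (B z v * (B u v)⁻¹) • u + (B z u * (B v u)⁻¹) • v := by
              rw [hw]; abel
            rw [h4]
            simp only [Submodule.subtype_apply, map_add, map_smul, hyK.1, hyK.2, h3]
            simp
          · intro hx
            rw [LinearMap.mem_ker] at hx
            have hxK : x ∈ K := by rw [hKmem, hx]; simp
            refine ⟨⟨x, hxK⟩, ?_, rfl⟩
            rw [SetLike.mem_coe, LinearMap.mem_ker]
            ext y
            rw [hBK]
            simp [hx]
        rw [← hmap]
        exact (LinearEquiv.finrank_eq (Submodule.equivMapOfInjective K.subtype K.injective_subtype _))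
      have e1 := LinearMap.finrank_range_add_finrank_ker BK
      have e2 := LinearMap.finrank_range_add_finrank_ker B
      have : finrank F (LinearMap.range B) = finrank F (LinearMap.range BK) + 2 := by
        rw [hn] at e2
        omega
      rw [this]
      exact hev.add (by norm_num)

end Cfsg.Agent.H36
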